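import Mathlib

/-!
Totally singular subspaces of maximal dimension `m` in a `2m`-dimensional quadratic space
(any field, any characteristic): adjacency and the parity relation.
-/

set_option autoImplicit false

namespace Cfsg.Agent.Forms25

variable {F V : Type*} [Field F] [AddCommGroup V] [Module F V]

/-- `W` is totally singular for `Q`. -/
def TotSing (Q : QuadraticForm F V) (W : Submodule F V) : Prop := ∀ w ∈ W, Q w = 0

section

variable {Q : QuadraticForm F V}

theorem TotSing.mono {W W' : Submodule F V} (h : TotSing Q W') (hle : W ≤ W') : TotSing Q W :=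
  fun w hw => h w (hle hw)

theorem polarBilin_comm (x y : V) : QuadraticMap.polarBilin Q x y = QuadraticMap.polarBilin Q y x :=
  QuadraticMap.polar_comm (⇑Q) x y

theorem polarBilin_isRefl (Q : QuadraticForm F V) :
    LinearMap.BilinForm.IsRefl (QuadraticMap.polarBilin Q) := fun x y h => by
  rw [polarBilin_comm]; exact h

theorem map_add_eq (x y : V) : Q (x + y) = Q x + Q y + QuadraticMap.polarBilin Q x y :=
  QuadraticMap.map_add (⇑Q) x y

theorem TotSing.le_orthogonal {W : Submodule F V} (h : TotSing Q W) :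
    W ≤ LinearMap.BilinForm.orthogonal (QuadraticMap.polarBilin Q) W := by
  intro x hx
  rw [LinearMap.BilinForm.mem_orthogonal_iff]
  intro n hn
  have := map_add_eq (Q := Q) n x
  rw [h _ (W.add_mem hn hx), h n hn, h x hx] at this
  simpa using this.symm

theorem totSing_sup_span {W : Submodule F V} (h : TotSing Q W) {x : V} (hx : Q x = 0)
    (ho : x ∈ LinearMap.BilinForm.orthogonal (QuadraticMap.polarBilin Q) W) :
    TotSing Q (W ⊔ Submodule.span F {x}) := by
  intro y hy
  obtain ⟨w, hw, z, hz, rfl⟩ := Submodule.mem_sup.1 hy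
  obtain ⟨a, rfl⟩ := Submodule.mem_span_singleton.1 hz
  rw [map_add_eq, h w hw, QuadraticMap.map_smul, hx, map_smul,
    (LinearMap.BilinForm.mem_orthogonal_iff).1 ho w hw]
  simp

theorem mem_or_mem_of_two {S A B : Submodule F V} (h : ∀ x ∈ S, x ∈ A ∨ x ∈ B) :
    S ≤ A ∨ S ≤ B := by
  by_contra hc
  push Not at hc
  obtain ⟨⟨x, hx, hxA⟩, ⟨y, hy, hyB⟩⟩ := And.imp SetLike.not_le_iff_exists.1 SetLike.not_le_iff_exists.1 hc
  have hxB : x ∈ B := (h x hx).resolve_left hxA
  have hyA : y ∈ A := (h y hy).resolve_right hyB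
  rcases h (x + y) (S.add_mem hx hy) with h' | h'
  · exact hxA ((A.add_mem_iff_left hyA).1 h')
  · exact hyB ((B.add_mem_iff_right hxB).1 h')

variable [FiniteDimensional F V]

theorem finrank_sup_span_of_notMem {W : Submodule F V} {x : V} (hx : x ∉ W) :
    Module.finrank F ↥(W ⊔ Submodule.span F {x}) = Module.finrank F W + 1 := by
  have hinf : W ⊓ Submodule.span F {x} = ⊥ := by
    rw [eq_bot_iff]
    rintro y ⟨hyW, hy⟩
    obtain ⟨a, rfl⟩ := Submodule.mem_span_singleton.1 hy
    by_cases ha : a = 0
    · simp [ha]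
    · exact absurd ((Submodule.smul_mem_iff W ha).1 hyW) hx
  have := Submodule.finrank_sup_add_finrank_inf_eq W (Submodule.span F {x})
  rw [hinf, finrank_bot, finrank_span_singleton (show x ≠ 0 from fun h0 => hx (h0 ▸ W.zero_mem))] at this
  omega

theorem TotSing.two_mul_le (hnd : (QuadraticMap.polarBilin Q).Nondegenerate) {W : Submodule F V}
    (h : TotSing Q W) : 2 * Module.finrank F W ≤ Module.finrank F V := by
  have h1 := Submodule.finrank_mono h.le_orthogonal
  rw [LinearMap.BilinForm.finrank_orthogonal hnd] at h1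
  have := Submodule.finrank_le W
  omega

theorem TotSing.orthogonal_eq (hnd : (QuadraticMap.polarBilin Q).Nondegenerate) {W : Submodule F V}
    (h : TotSing Q W) {m : ℕ} (hV : Module.finrank F V = 2 * m) (hW : Module.finrank F W = m) :
    LinearMap.BilinForm.orthogonal (QuadraticMap.polarBilin Q) W = W := by
  refine (Submodule.eq_of_le_of_finrank_le h.le_orthogonal ?_).symm
  rw [LinearMap.BilinForm.finrank_orthogonal hnd]; omega

/-- A maximal subspace meets `T⊥` in one dimension more than it meets `T`. -/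
theorem finrank_inf_orthogonal (hnd : (QuadraticMap.polarBilin Q).Nondegenerate)
    {U T : Submodule F V} (hU : TotSing Q U) {m : ℕ} (hV : Module.finrank F V = 2 * m)
    (hUm : Module.finrank F U = m) (hT : Module.finrank F T + 1 = m) :
    Module.finrank F ↥(U ⊓ LinearMap.BilinForm.orthogonal (QuadraticMap.polarBilin Q) T) =
      Module.finrank F ↥(U ⊓ T) + 1 := by
  have he : U ⊓ LinearMap.BilinForm.orthogonal (QuadraticMap.polarBilin Q) T =
      LinearMap.BilinForm.orthogonal (QuadraticMap.polarBilin Q) (U ⊔ T) := by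
    refine le_antisymm ?_ ?_
    · rintro x ⟨hxU, hxT⟩
      rw [LinearMap.BilinForm.mem_orthogonal_iff]
      intro n hn
      obtain ⟨u, hu, t, ht, rfl⟩ := Submodule.mem_sup.1 hn
      rw [map_add, LinearMap.add_apply,
        LinearMap.BilinForm.mem_orthogonal_iff.1 (hU.le_orthogonal hxU) u hu,
        LinearMap.BilinForm.mem_orthogonal_iff.1 hxT t ht, add_zero]
    · refine le_inf ?_ (LinearMap.BilinForm.orthogonal_le le_sup_right)
      exact (LinearMap.BilinForm.orthogonal_le le_sup_left).trans_eq (hU.orthogonal_eq hnd hV hUm)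
  rw [he, LinearMap.BilinForm.finrank_orthogonal hnd]
  have := Submodule.finrank_sup_add_finrank_inf_eq U T
  have := Submodule.finrank_le (U ⊔ T)
  omega

/-- A singular vector of `T⊥` lies in one of two distinct maximal subspaces through `T`. -/
theorem mem_or_mem_of_singular (hnd : (QuadraticMap.polarBilin Q).Nondegenerate)
    {T W W' : Submodule F V} {m : ℕ} (hV : Module.finrank F V = 2 * m)
    (hT : Module.finrank F T + 1 = m) (hW : TotSing Q W) (hWm : Module.finrank F W = m)
    (hW' : TotSing Q W') (hW'm : Module.finrank F W' = m) (hTW : T ≤ W) (hTW' : T ≤ W')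
    (hne : W ≠ W') {x : V}
    (hx : x ∈ LinearMap.BilinForm.orthogonal (QuadraticMap.polarBilin Q) T) (hqx : Q x = 0) :
    x ∈ W ∨ x ∈ W' := by
  obtain ⟨a, ha, haT⟩ : ∃ a ∈ W, a ∉ T := SetLike.exists_of_lt (lt_of_le_of_ne hTW (by rintro rfl; omega))
  obtain ⟨b, hb, hbT⟩ : ∃ b ∈ W', b ∉ T := SetLike.exists_of_lt (lt_of_le_of_ne hTW' (by rintro rfl; omega))
  have hWe : W = T ⊔ Submodule.span F {a} := by
    refine (Submodule.eq_of_le_of_finrank_le (sup_le hTW ((Submodule.span_singleton_le_iff_mem _ _).2 ha)) ?_).symm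
    rw [finrank_sup_span_of_notMem haT]; omega
  have hW'e : W' = T ⊔ Submodule.span F {b} := by
    refine (Submodule.eq_of_le_of_finrank_le (sup_le hTW' ((Submodule.span_singleton_le_iff_mem _ _).2 hb)) ?_).symm
    rw [finrank_sup_span_of_notMem hbT]; omega
  have hbW : b ∉ W := fun h => hne (Submodule.eq_of_le_of_finrank_eq
    (hW'e ▸ sup_le hTW ((Submodule.span_singleton_le_iff_mem _ _).2 h)) (hW'm.trans hWm.symm)).symm
  have hle : W ⊔ Submodule.span F {b} =
      LinearMap.BilinForm.orthogonal (QuadraticMap.polarBilin Q) T := by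
    refine Submodule.eq_of_le_of_finrank_le ?_ ?_
    · refine sup_le (hW.le_orthogonal.trans (LinearMap.BilinForm.orthogonal_le hTW)) ?_
      rw [Submodule.span_singleton_le_iff_mem]
      exact LinearMap.BilinForm.orthogonal_le hTW' (hW'.le_orthogonal hb)
    · rw [LinearMap.BilinForm.finrank_orthogonal hnd, finrank_sup_span_of_notMem hbW]; omega
  have hab : QuadraticMap.polarBilin Q a b ≠ 0 := by
    intro h0
    have hbo : b ∈ LinearMap.BilinForm.orthogonal (QuadraticMap.polarBilin Q) W := by
      rw [LinearMap.BilinForm.mem_orthogonal_iff, hWe]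
      intro n hn
      obtain ⟨t, ht, z, hz, rfl⟩ := Submodule.mem_sup.1 hn
      obtain ⟨c, rfl⟩ := Submodule.mem_span_singleton.1 hz
      rw [map_add, LinearMap.add_apply, map_smul, LinearMap.smul_apply, h0, smul_zero, add_zero]
      exact LinearMap.BilinForm.mem_orthogonal_iff.1 (hW'.le_orthogonal hb) t (hTW' ht)
    exact hbW ((hW.orthogonal_eq hnd hV hWm).le hbo)
  rw [← hle] at hx
  obtain ⟨w, hw, z, hz, rfl⟩ := Submodule.mem_sup.1 hx
  obtain ⟨β, rfl⟩ := Submodule.mem_span_singleton.1 hz
  rw [hWe] at hw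
  obtain ⟨t, ht, z, hz', rfl⟩ := Submodule.mem_sup.1 hw
  obtain ⟨α, rfl⟩ := Submodule.mem_span_singleton.1 hz'
  have htb : QuadraticMap.polarBilin Q t b = 0 :=
    LinearMap.BilinForm.mem_orthogonal_iff.1 (hW'.le_orthogonal hb) t (hTW' ht)
  rw [map_add_eq, QuadraticMap.map_smul, hW' b hb, hW (t + α • a) (W.add_mem (hTW ht) (W.smul_mem α ha)),
    map_add, LinearMap.add_apply] at hqx
  simp only [map_smul, LinearMap.smul_apply, smul_eq_mul, htb, mul_zero, zero_add, mul_eq_zero, hab, or_false] at hqx
  rcases hqx.symm with rfl | rfl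
  · right
    simpa using W'.add_mem (hTW' ht) (W'.smul_mem β hb)
  · left
    simpa using W.add_mem (hTW ht) (W.smul_mem α ha)

/-- Adjacent maximal subspaces: every maximal subspace meets them in dimensions differing by one. -/
theorem adjacent_finrank_inf (hnd : (QuadraticMap.polarBilin Q).Nondegenerate)
    {U W W' : Submodule F V} {m : ℕ} (hV : Module.finrank F V = 2 * m)
    (hU : TotSing Q U) (hUm : Module.finrank F U = m)
    (hW : TotSing Q W) (hWm : Module.finrank F W = m)
    (hW' : TotSing Q W') (hW'm : Module.finrank F W' = m)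
    (hadj : Module.finrank F ↥(W ⊓ W') + 1 = m) :
    Module.finrank F ↥(U ⊓ W) = Module.finrank F ↥(U ⊓ W') + 1 ∨
      Module.finrank F ↥(U ⊓ W') = Module.finrank F ↥(U ⊓ W) + 1 := by
  have key : ∀ W W' : Submodule F V, TotSing Q W → TotSing Q W' →
      ∀ T : Submodule F V, T = W ⊓ W' → Module.finrank F T + 1 = m →
      U ⊓ LinearMap.BilinForm.orthogonal (QuadraticMap.polarBilin Q) T ≤ W →
      Module.finrank F ↥(U ⊓ W) = Module.finrank F ↥(U ⊓ W') + 1 := by
    intro W W' hW hW' T hTe hT hle
    have hTW : T ≤ W := hTe ▸ inf_le_left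
    have hTW' : T ≤ W' := hTe ▸ inf_le_right
    have e1 : U ⊓ W = U ⊓ LinearMap.BilinForm.orthogonal (QuadraticMap.polarBilin Q) T :=
      le_antisymm (inf_le_inf_left U (hW.le_orthogonal.trans (LinearMap.BilinForm.orthogonal_le hTW)))
        (le_inf inf_le_left hle)
    have e2 : U ⊓ W' = U ⊓ T := by
      refine le_antisymm (le_inf inf_le_left ?_) (inf_le_inf_left U hTW')
      rw [hTe]
      refine le_inf ?_ inf_le_right
      exact (inf_le_inf_left U (hW'.le_orthogonal.trans (LinearMap.BilinForm.orthogonal_le hTW'))).trans hle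
    rw [e1, e2]
    exact finrank_inf_orthogonal hnd hU hV hUm hT
  have hne : W ≠ W' := by rintro rfl; rw [inf_idem] at hadj; omega
  rcases mem_or_mem_of_two (S := U ⊓ LinearMap.BilinForm.orthogonal (QuadraticMap.polarBilin Q) (W ⊓ W'))
      (fun x hx => mem_or_mem_of_singular hnd hV hadj hW hWm hW' hW'm inf_le_left inf_le_right hne
        hx.2 (hU x hx.1)) with h | h
  · exact .inl (key W W' hW hW' _ rfl hadj h)
  · exact .inr (key W' W hW' hW _ (inf_comm W W') hadj h)

/-- The parity cocycle of maximal totally singular subspaces. -/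
theorem parity_maximal (hnd : (QuadraticMap.polarBilin Q).Nondegenerate)
    {U W X : Submodule F V} {m : ℕ} (hV : Module.finrank F V = 2 * m)
    (hU : TotSing Q U) (hUm : Module.finrank F U = m)
    (hW : TotSing Q W) (hWm : Module.finrank F W = m)
    (hX : TotSing Q X) (hXm : Module.finrank F X = m) :
    (Module.finrank F ↥(U ⊓ W) + Module.finrank F ↥(W ⊓ X) + Module.finrank F ↥(U ⊓ X)) % 2 =
      m % 2 := by
  induction hd : m - Module.finrank F ↥(W ⊓ X) generalizing W with
  | zero =>
    have h1 := Submodule.finrank_mono (inf_le_left : W ⊓ X ≤ W)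
    have e1 : W ⊓ X = W := Submodule.eq_of_le_of_finrank_le inf_le_left (by omega)
    have e2 : W = X := Submodule.eq_of_le_of_finrank_eq (inf_eq_left.1 e1) (hWm.trans hXm.symm)
    subst e2
    rw [inf_idem]
    omega
  | succ d ih =>
    obtain ⟨x, hxX, hxW⟩ : ∃ x ∈ X, x ∉ W := by
      by_contra hc
      push Not at hc
      have : W ⊓ X = X := inf_eq_right.2 hc
      rw [this] at hd; omega
    set K := LinearMap.ker ((QuadraticMap.polarBilin Q x).comp W.subtype) with hK
    set T := K.map W.subtype with hT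
    have hTW : T ≤ W := Submodule.map_subtype_le W K
    have hne : (QuadraticMap.polarBilin Q x).comp W.subtype ≠ 0 := by
      intro h0
      apply hxW
      rw [← hW.orthogonal_eq hnd hV hWm, LinearMap.BilinForm.mem_orthogonal_iff]
      intro n hn
      rw [polarBilin_comm]
      exact LinearMap.congr_fun h0 ⟨n, hn⟩
    have hTm : Module.finrank F T + 1 = m := by
      have h := Module.Dual.finrank_ker_add_one_of_ne_zero hne
      rw [hT, Submodule.finrank_map_subtype_eq, h, hWm]
    have hxo : x ∈ LinearMap.BilinForm.orthogonal (QuadraticMap.polarBilin Q) T := by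
      rw [LinearMap.BilinForm.mem_orthogonal_iff]
      rintro n ⟨y, hy, rfl⟩
      rw [polarBilin_comm]; exact hy
    have hW2 : TotSing Q (T ⊔ Submodule.span F {x}) := totSing_sup_span (hW.mono hTW) (hX x hxX) hxo
    have hW2m : Module.finrank F ↥(T ⊔ Submodule.span F {x}) = m := by
      rw [finrank_sup_span_of_notMem (fun h => hxW (hTW h)), hTm]
    have hWX : W ⊓ X ≤ T := by
      rintro y ⟨hyW, hyX⟩
      refine ⟨⟨y, hyW⟩, ?_, rfl⟩
      simp only [hK, SetLike.mem_coe, LinearMap.mem_ker, LinearMap.comp_apply, Submodule.subtype_apply]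
      exact LinearMap.BilinForm.mem_orthogonal_iff.1 (hX.le_orthogonal hyX) x hxX
    have hge : Module.finrank F ↥(W ⊓ X) + 1 ≤
        Module.finrank F ↥((T ⊔ Submodule.span F {x}) ⊓ X) := by
      rw [← finrank_sup_span_of_notMem (fun h => hxW h.1 : x ∉ W ⊓ X)]
      exact Submodule.finrank_mono (le_inf (sup_le_sup_right hWX _)
        (sup_le inf_le_right ((Submodule.span_singleton_le_iff_mem _ _).2 hxX)))
    have hadj : Module.finrank F ↥(W ⊓ (T ⊔ Submodule.span F {x})) + 1 = m := by
      have h1 : Module.finrank F T ≤ Module.finrank F ↥(W ⊓ (T ⊔ Submodule.span F {x})) :=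
        Submodule.finrank_mono (le_inf hTW le_sup_left)
      have h2 : W ⊓ (T ⊔ Submodule.span F {x}) < T ⊔ Submodule.span F {x} :=
        lt_of_le_of_ne inf_le_right fun h => hxW ((inf_eq_right.1 h)
          (Submodule.mem_sup_right (Submodule.mem_span_singleton_self x)))
      have h3 := Submodule.finrank_lt_finrank_of_lt h2
      omega
    have a1 := adjacent_finrank_inf hnd hV hX hXm hW hWm hW2 hW2m hadj
    rw [inf_comm X W, inf_comm X (T ⊔ Submodule.span F {x})] at a1
    have a2 := adjacent_finrank_inf hnd hV hU hUm hW hWm hW2 hW2m hadj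
    have := ih hW2 hW2m (by omega)
    omega

/-- Exactly two maximal totally singular subspaces contain a given `(m-1)`-dimensional one. -/
theorem card_maximal_over (hnd : (QuadraticMap.polarBilin Q).Nondegenerate)
    {T X : Submodule F V} {m : ℕ} (hV : Module.finrank F V = 2 * m)
    (hTs : TotSing Q T) (hTm : Module.finrank F T + 1 = m)
    (hX : TotSing Q X) (hXm : Module.finrank F X = m) :
    Nat.card {W : Submodule F V // Module.finrank F W = m ∧ TotSing Q W ∧ T ≤ W} = 2 := by
  have h1 := finrank_inf_orthogonal hnd hX hV hXm hTm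
  obtain ⟨a, ha, haT⟩ : ∃ a ∈ X ⊓ LinearMap.BilinForm.orthogonal (QuadraticMap.polarBilin Q) T,
      a ∉ X ⊓ T := by
    by_contra hc
    push Not at hc
    have := Submodule.finrank_mono (hc : _ ≤ X ⊓ T)
    omega
  replace haT : a ∉ T := fun h => haT ⟨ha.1, h⟩
  obtain ⟨b0, hb0, hab⟩ : ∃ b0 ∈ LinearMap.BilinForm.orthogonal (QuadraticMap.polarBilin Q) T,
      QuadraticMap.polarBilin Q b0 a ≠ 0 := by
    by_contra hc
    push Not at hc
    apply haT
    rw [← LinearMap.BilinForm.orthogonal_orthogonal hnd (polarBilin_isRefl Q) T,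
      LinearMap.BilinForm.mem_orthogonal_iff]
    exact hc
  rw [polarBilin_comm] at hab
  set c := QuadraticMap.polarBilin Q a b0 with hc
  set b := c⁻¹ • b0 + (-(c⁻¹ * c⁻¹ * Q b0)) • a with hb
  have hbo : b ∈ LinearMap.BilinForm.orthogonal (QuadraticMap.polarBilin Q) T :=
    Submodule.add_mem _ (Submodule.smul_mem _ _ hb0) (Submodule.smul_mem _ _ ha.2)
  have hQb : Q b = 0 := by
    rw [hb, map_add_eq, QuadraticMap.map_smul, QuadraticMap.map_smul, hX a ha.1, map_smul,
      map_smul, LinearMap.smul_apply, polarBilin_comm b0 a, ← hc]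
    simp only [smul_eq_mul]
    field_simp
    ring
  have haa : QuadraticMap.polarBilin Q a a = 0 :=
    LinearMap.BilinForm.mem_orthogonal_iff.1 (hX.le_orthogonal ha.1) a ha.1
  have hfab : QuadraticMap.polarBilin Q a b = 1 := by
    rw [hb, map_add, map_smul, map_smul, haa, ← hc]
    simp [inv_mul_cancel₀ hab]
  have hbT : b ∉ T := fun h => by
    have := LinearMap.BilinForm.mem_orthogonal_iff.1 ha.2 b h
    rw [polarBilin_comm, hfab] at this
    exact one_ne_zero this
  have hA := totSing_sup_span hTs (hX a ha.1) ha.2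
  have hB := totSing_sup_span hTs hQb hbo
  have hAm : Module.finrank F ↥(T ⊔ Submodule.span F {a}) = m := by
    rw [finrank_sup_span_of_notMem haT, hTm]
  have hBm : Module.finrank F ↥(T ⊔ Submodule.span F {b}) = m := by
    rw [finrank_sup_span_of_notMem hbT, hTm]
  have hne : T ⊔ Submodule.span F {a} ≠ T ⊔ Submodule.span F {b} := by
    intro h
    have hb' : b ∈ T ⊔ Submodule.span F {a} :=
      h.symm ▸ Submodule.mem_sup_right (Submodule.mem_span_singleton_self b)
    have := LinearMap.BilinForm.mem_orthogonal_iff.1 (hA.le_orthogonal hb') a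
      (Submodule.mem_sup_right (Submodule.mem_span_singleton_self a))
    rw [hfab] at this
    exact one_ne_zero this
  have hset : {W : Submodule F V | Module.finrank F W = m ∧ TotSing Q W ∧ T ≤ W} =
      {T ⊔ Submodule.span F {a}, T ⊔ Submodule.span F {b}} := by
    ext W
    constructor
    · rintro ⟨hWm, hW, hTW⟩
      rcases mem_or_mem_of_two (S := W) (fun x hx => mem_or_mem_of_singular hnd hV hTm hA hAm hB hBm
          le_sup_left le_sup_left hne
          (LinearMap.BilinForm.orthogonal_le hTW (hW.le_orthogonal hx)) (hW x hx)) with h | h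
      · exact .inl (Submodule.eq_of_le_of_finrank_eq h (hWm.trans hAm.symm))
      · exact .inr (Submodule.eq_of_le_of_finrank_eq h (hWm.trans hBm.symm))
    · rintro (rfl | rfl)
      · exact ⟨hAm, hA, le_sup_left⟩
      · exact ⟨hBm, hB, le_sup_left⟩
  change Nat.card ↥{W : Submodule F V | Module.finrank F W = m ∧ TotSing Q W ∧ T ≤ W} = 2
  rw [hset, Nat.card_coe_set_eq, Set.ncard_pair hne]

end

end Cfsg.Agent.Forms25
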